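/-
Polynomial identities for the eigenvalues of elements of `SL₃(q)` and of the unitary version: the polynomial
`X³ - cX² + dX - 1` divides `X^N - 1` for `N` one of the torus exponents.
-/
import Mathlib

set_option autoImplicit false
set_option linter.all false

namespace Cfsg.Agent.Lib.G2Oct.Eigen

open Polynomial

section abstract

variable {E : Type*} [Field E]

lemma rot3 {P Q R : Prop} (h : P ∨ Q ∨ R) : R ∨ P ∨ Q := by tauto
lemma rot3' {P Q R : Prop} (h : P ∨ Q ∨ R) : Q ∨ R ∨ P := by tauto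

/-- The cubic with prescribed roots. -/
noncomputable def P3 (a b c : E) : E[X] := (X - C a) * (X - C b) * (X - C c)

lemma P3_swap12 (a b c : E) : P3 a b c = P3 b a c := by simp only [P3]; ring
lemma P3_swap23 (a b c : E) : P3 a b c = P3 a c b := by simp only [P3]; ring
lemma P3_rot (a b c : E) : P3 a b c = P3 b c a := by simp only [P3]; ring

lemma isRoot_pow_sub_one {a : E} {m : ℕ} (h : a ^ m = 1) : ((X : E[X]) ^ m - 1).IsRoot a := by
  simp [IsRoot, h]

lemma dvd_two {f : E[X]} {a b : E} (hab : a ≠ b) (ha : f.IsRoot a) (hb : f.IsRoot b) :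
    (X - C a) * (X - C b) ∣ f := by
  obtain ⟨g, rfl⟩ := dvd_iff_isRoot.2 ha
  apply mul_dvd_mul_left
  rw [dvd_iff_isRoot]
  simp only [IsRoot, eval_mul, eval_sub, eval_X, eval_C] at hb
  exact (mul_eq_zero.1 hb).resolve_left (sub_ne_zero.2 hab.symm)

lemma dvd_three {f : E[X]} {a b c : E} (hab : a ≠ b) (hac : a ≠ c) (hbc : b ≠ c)
    (ha : f.IsRoot a) (hb : f.IsRoot b) (hc : f.IsRoot c) : P3 a b c ∣ f := by
  obtain ⟨g, rfl⟩ := dvd_iff_isRoot.2 ha
  rw [P3, mul_assoc]
  apply mul_dvd_mul_left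
  simp only [IsRoot, eval_mul, eval_sub, eval_X, eval_C] at hb hc
  have hb' := (mul_eq_zero.1 hb).resolve_left (sub_ne_zero.2 hab.symm)
  have hc' := (mul_eq_zero.1 hc).resolve_left (sub_ne_zero.2 hac.symm)
  exact dvd_two hbc hb' hc'

variable {p : ℕ} [hp : Fact p.Prime] [CharP E p]

lemma pow_frob (f : E[X]) (N : ℕ) (h : f = X ^ N - 1) : f ^ p = X ^ (p * N) - 1 := by
  rw [h, sub_pow_char, one_pow, ← pow_mul, mul_comm]

section

variable {σ : E → E} (hinj : Function.Injective σ) {N0 Np Nq : ℕ}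
  (h0 : ∀ x, x ≠ 0 → σ x = x → x ^ N0 = 1)
  (h2 : ∀ x, x ≠ 0 → σ (σ x) = x → x ^ Nq = 1)
  (hp1 : ∀ x, x ≠ 0 → x * σ x * σ (σ x) = 1 → x ^ Np = 1)
  (hp2 : ∀ x, x ^ Np = 1 → σ x ^ Np = 1)

include hinj h0 in
lemma two_equal {a c : E} (hac : a ≠ c) (h : a * a * c = 1) (hσa : σ a = a ∨ σ a = c)
    (hσc : σ c = a ∨ σ c = c) (hsum : σ a + σ a + σ c = a + a + c) : P3 a a c ∣ X ^ (p * N0) - 1 := by
  have ha0 : a ≠ 0 := by
    rintro rfl
    simp at h
  have hc0 : c ≠ 0 := by
    rintro rfl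
    simp at h
  have hfa : σ a = a := by
    rcases hσa with h1 | h1
    · exact h1
    · exfalso
      have h2 : σ c = a := by
        rcases hσc with h2 | h2
        · exact h2
        · exact absurd (hinj (h1.trans h2.symm)) hac
      rw [h1, h2] at hsum
      apply hac
      linear_combination -hsum
  have hfc : σ c = c := by
    rcases hσc with h2 | h2
    · exact absurd (hinj (hfa.trans h2.symm)) hac
    · exact h2
  have e1 := h0 a ha0 hfa
  have e2 := h0 c hc0 hfc
  have hd := dvd_two (f := (X : E[X]) ^ N0 - 1) hac (isRoot_pow_sub_one e1) (isRoot_pow_sub_one e2)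
  have h3 : P3 a a c ∣ ((X - C a) * (X - C c)) ^ 2 := ⟨X - C c, by simp only [P3]; ring⟩
  have h4 : ((X - C a) * (X - C c)) ^ 2 ∣ ((X : E[X]) ^ N0 - 1) ^ p :=
    (pow_dvd_pow_of_dvd hd 2).trans (pow_dvd_pow _ hp.out.two_le)
  rw [pow_frob _ N0 rfl] at h4
  exact h3.trans h4

include hinj h0 in
lemma all_equal {a : E} (h : a * a * a = 1) (hσa : σ a = a) :
    (3 ≤ p ∧ P3 a a a ∣ X ^ (p * N0) - 1) ∨ (p = 2 ∧ P3 a a a ∣ X ^ 12 - 1) := by
  have ha0 : a ≠ 0 := by
    rintro rfl
    simp at h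
  have e1 := h0 a ha0 hσa
  by_cases hp2 : p = 2
  · right
    refine ⟨hp2, ?_⟩
    subst hp2
    have h1 : ((X : E[X]) - C a) ^ 4 = X ^ 4 - C (a ^ 4) := by
      have := sub_pow_char_pow_of_commute (R := E[X]) (x := X) (y := C a) 2 2 (Commute.all _ _)
      simpa using this
    have h2 : P3 a a a ∣ ((X : E[X]) - C a) ^ 4 := ⟨X - C a, by simp only [P3]; ring⟩
    have h3 : (X : E[X]) ^ 4 - C (a ^ 4) ∣ X ^ 12 - 1 := by
      have h4 := sub_dvd_pow_sub_pow ((X : E[X]) ^ 4) (C (a ^ 4)) 3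
      have h5 : (C (a ^ 4) : E[X]) ^ 3 = 1 := by
        rw [← C_pow]
        have : (a ^ 4) ^ 3 = (a * a * a) ^ 4 := by ring
        rw [this, h]
        simp
      rw [h5, ← pow_mul] at h4
      exact h4
    rw [h1] at h2
    exact h2.trans h3
  · left
    have h3p : 3 ≤ p := by
      have := hp.out.two_le
      omega
    refine ⟨h3p, ?_⟩
    have hd : (X : E[X]) - C a ∣ X ^ N0 - 1 := dvd_iff_isRoot.2 (isRoot_pow_sub_one e1)
    have h4 : (X - C a) ^ 3 ∣ ((X : E[X]) ^ N0 - 1) ^ p :=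
      (pow_dvd_pow_of_dvd hd 3).trans (pow_dvd_pow _ h3p)
    rw [pow_frob _ N0 rfl] at h4
    have h5 : P3 a a a = (X - C a) ^ 3 := by simp only [P3]; ring
    rw [h5]
    exact h4

include hinj hp1 hp2 in
lemma dist_B {a b c : E} (hab : a ≠ b) (hac : a ≠ c) (hbc : b ≠ c) (h : a * b * c = 1)
    (hσa : σ a = a ∨ σ a = b ∨ σ a = c) (hσb : σ b = a ∨ σ b = b ∨ σ b = c)
    (hσc : σ c = a ∨ σ c = b ∨ σ c = c) (hB : σ (σ a) ≠ a) : P3 a b c ∣ X ^ Np - 1 := by
  have ha0 : a ≠ 0 := by
    rintro rfl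
    simp at h
  have h1 : σ a ≠ a := by
    intro h1
    rw [h1, h1] at hB
    exact hB rfl
  have h3 : σ (σ a) ≠ σ a := fun h3 => h1 (hinj h3)
  have hprod : a * σ a * σ (σ a) = 1 := by
    rcases hσa with h4 | h4 | h4
    · exact absurd h4 h1
    · rw [h4] at hB h3 ⊢
      rcases hσb with h5 | h5 | h5
      · exact absurd h5 hB
      · exact absurd h5 h3
      · rw [h5]; exact h
    · rw [h4] at hB h3 ⊢
      rcases hσc with h5 | h5 | h5
      · exact absurd h5 hB
      · rw [h5]; linear_combination h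
      · exact absurd h5 h3
  have ea := hp1 a ha0 hprod
  have ef1 := hp2 a ea
  have ef2 := hp2 _ ef1
  apply dvd_three hab hac hbc (isRoot_pow_sub_one ea)
  · rcases hσa with h4 | h4 | h4
    · exact absurd h4 h1
    · rw [← h4]; exact isRoot_pow_sub_one ef1
    · -- σ a = c, so σ c = b
      rw [h4] at hB h3 ef2
      rcases hσc with h5 | h5 | h5
      · exact absurd h5 hB
      · rw [← h5]; exact isRoot_pow_sub_one ef2
      · exact absurd h5 h3
  · rcases hσa with h4 | h4 | h4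
    · exact absurd h4 h1
    · rw [h4] at hB h3 ef2
      rcases hσb with h5 | h5 | h5
      · exact absurd h5 hB
      · exact absurd h5 h3
      · rw [← h5]; exact isRoot_pow_sub_one ef2
    · rw [← h4]; exact isRoot_pow_sub_one ef1

include hinj h0 h2 hp1 hp2 in
/-- The abstract lemma on the roots. -/
theorem root_lemma {a b c : E} (h : a * b * c = 1)
    (hσa : σ a = a ∨ σ a = b ∨ σ a = c) (hσb : σ b = a ∨ σ b = b ∨ σ b = c)
    (hσc : σ c = a ∨ σ c = b ∨ σ c = c) (hsum : σ a + σ b + σ c = a + b + c) :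
    P3 a b c ∣ X ^ Np - 1 ∨ P3 a b c ∣ X ^ Nq - 1 ∨ P3 a b c ∣ X ^ (p * N0) - 1 ∨
      (p = 2 ∧ P3 a b c ∣ X ^ 12 - 1) := by
  have ha0 : a ≠ 0 := by
    rintro rfl
    simp at h
  have hb0 : b ≠ 0 := by
    rintro rfl
    simp at h
  have hc0 : c ≠ 0 := by
    rintro rfl
    simp at h
  by_cases hab : a = b
  · subst hab
    by_cases hac : a = c
    · subst hac
      have hσ : σ a = a := by
        rcases hσa with h1 | h1 | h1 <;> exact h1
      rcases all_equal hinj h0 h hσ with ⟨_, h1⟩ | h1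
      · exact Or.inr (Or.inr (Or.inl h1))
      · exact Or.inr (Or.inr (Or.inr h1))
    · have h1 : σ a = a ∨ σ a = c := by
        rcases hσa with h1 | h1 | h1
        · exact Or.inl h1
        · exact Or.inl h1
        · exact Or.inr h1
      have h3 : σ c = a ∨ σ c = c := by
        rcases hσc with h1 | h1 | h1
        · exact Or.inl h1
        · exact Or.inl h1
        · exact Or.inr h1
      exact Or.inr (Or.inr (Or.inl (two_equal hinj h0 hac h h1 h3 hsum)))
  · by_cases hac : a = c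
    · subst hac
      have h1 : σ a = a ∨ σ a = b := by
        rcases hσa with h1 | h1 | h1
        · exact Or.inl h1
        · exact Or.inr h1
        · exact Or.inl h1
      have h3 : σ b = a ∨ σ b = b := by
        rcases hσb with h1 | h1 | h1
        · exact Or.inl h1
        · exact Or.inr h1
        · exact Or.inl h1
      have e : P3 a b a = P3 a a b := by simp only [P3]; ring
      rw [e]
      exact Or.inr (Or.inr (Or.inl (two_equal hinj h0 hab (by linear_combination h) h1 h3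
        (by linear_combination hsum))))
    · by_cases hbc : b = c
      · subst hbc
        have h1 : σ b = b ∨ σ b = a := by
          rcases hσb with h1 | h1 | h1
          · exact Or.inr h1
          · exact Or.inl h1
          · exact Or.inl h1
        have h3 : σ a = b ∨ σ a = a := by
          rcases hσa with h1 | h1 | h1
          · exact Or.inr h1
          · exact Or.inl h1
          · exact Or.inl h1
        have e : P3 a b b = P3 b b a := by simp only [P3]; ring
        rw [e]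
        exact Or.inr (Or.inr (Or.inl (two_equal hinj h0 (Ne.symm hab) (by linear_combination h) h1 h3
          (by linear_combination hsum))))
      · by_cases hA : σ (σ a) = a ∧ σ (σ b) = b ∧ σ (σ c) = c
        · right; left
          exact dvd_three hab hac hbc (isRoot_pow_sub_one (h2 a ha0 hA.1))
            (isRoot_pow_sub_one (h2 b hb0 hA.2.1)) (isRoot_pow_sub_one (h2 c hc0 hA.2.2))
        · left
          by_cases hA1 : σ (σ a) = a
          · by_cases hA2 : σ (σ b) = b
            · have hA3 : σ (σ c) ≠ c := fun h3 => hA ⟨hA1, hA2, h3⟩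
              have e : P3 a b c = P3 c a b := by simp only [P3]; ring
              rw [e]
              exact dist_B hinj hp1 hp2 (Ne.symm hac) (Ne.symm hbc) hab (by linear_combination h)
                (rot3 hσc) (rot3 hσa) (rot3 hσb) hA3
            · have e : P3 a b c = P3 b c a := by simp only [P3]; ring
              rw [e]
              exact dist_B hinj hp1 hp2 hbc (Ne.symm hab) (Ne.symm hac) (by linear_combination h)
                (rot3' hσb) (rot3' hσc) (rot3' hσa) hA2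
          · exact dist_B hinj hp1 hp2 hab hac hbc h hσa hσb hσc hA1

end

end abstract

section concrete

variable {K : Type*} [Field K]

/-- The cubic. -/
noncomputable def Pc (c d : K) : K[X] := X ^ 3 - C c * X ^ 2 + C d * X - 1

lemma Pc_natDegree (c d : K) : (Pc c d).natDegree = 3 := by
  unfold Pc
  compute_degree!

lemma Pc_monic (c d : K) : (Pc c d).Monic := by
  unfold Pc
  monicity!

lemma P3_expand {E : Type*} [Field E] (x y z : E) :
    P3 x y z = X ^ 3 - C (x + y + z) * X ^ 2 + C (x * y + y * z + z * x) * X - C (x * y * z) := by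
  simp only [P3, map_add, map_mul]
  ring

variable {E : Type*} [Field E] [Algebra K E] [IsAlgClosed E]

lemma Pc_map (c d : K) : (Pc c d).map (algebraMap K E) =
    X ^ 3 - C (algebraMap K E c) * X ^ 2 + C (algebraMap K E d) * X - 1 := by
  simp [Pc, Polynomial.map_sub, Polynomial.map_add, Polynomial.map_mul]

omit [Algebra K E] [IsAlgClosed E] in
lemma coeffs {A B D c d : E}
    (h : (X ^ 3 - C c * X ^ 2 + C d * X - 1 : E[X]) = X ^ 3 - C A * X ^ 2 + C B * X - C D) :
    A = c ∧ B = d ∧ D = 1 := by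
  have h2 := congrArg (fun f => coeff f 2) h
  have h1 := congrArg (fun f => coeff f 1) h
  have h0 := congrArg (fun f => coeff f 0) h
  simp [coeff_X_pow, coeff_X, coeff_one] at h2 h1 h0
  exact ⟨h2.symm, h1.symm, h0.symm⟩

lemma exists_roots (c d : K) : ∃ x y z : E, (Pc c d).map (algebraMap K E) = P3 x y z ∧
    x + y + z = algebraMap K E c ∧ x * y + y * z + z * x = algebraMap K E d ∧ x * y * z = 1 := by
  set f := (Pc c d).map (algebraMap K E) with hf
  have hs : f.Splits := IsAlgClosed.splits f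
  have hm : f.Monic := (Pc_monic c d).map _
  have h1 := hs.eq_prod_roots_of_monic hm
  have hdeg : f.natDegree = 3 := by
    rw [hf, natDegree_map, Pc_natDegree]
  have hcard : f.roots.card = 3 := by
    rw [← hs.natDegree_eq_card_roots, hdeg]
  obtain ⟨x, y, z, hr⟩ := Multiset.card_eq_three.1 hcard
  have h2 : f = P3 x y z := by
    rw [h1, hr]
    simp [P3, mul_assoc]
  refine ⟨x, y, z, h2, ?_⟩
  have h3 := Pc_map (E := E) c d
  rw [← hf, h2, P3_expand] at h3
  exact coeffs h3.symm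

end concrete

section main

variable {K : Type*} [Field K] {p : ℕ} [hp : Fact p.Prime] [CharP K p]

/-- The common part of the two cases. -/
lemma cubic_gen {E : Type*} [Field E] [Algebra K E] [IsAlgClosed E] [CharP E p] (c d : K) {σ : E → E}
    (hinj : Function.Injective σ) {N0 Np Nq : ℕ}
    (h0 : ∀ x, x ≠ 0 → σ x = x → x ^ N0 = 1)
    (h2 : ∀ x, x ≠ 0 → σ (σ x) = x → x ^ Nq = 1)
    (hp1 : ∀ x, x ≠ 0 → x * σ x * σ (σ x) = 1 → x ^ Np = 1)
    (hp2 : ∀ x, x ^ Np = 1 → σ x ^ Np = 1)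
    (hroot : ∀ w : E, w ≠ 0 → w ^ 3 - algebraMap K E c * w ^ 2 + algebraMap K E d * w - 1 = 0 →
      σ w ^ 3 - algebraMap K E c * σ w ^ 2 + algebraMap K E d * σ w - 1 = 0)
    (hsum : ∀ x y z : E, x * y * z = 1 → x + y + z = algebraMap K E c →
      x * y + y * z + z * x = algebraMap K E d → σ x + σ y + σ z = x + y + z) :
    Pc c d ∣ X ^ Np - 1 ∨ Pc c d ∣ X ^ Nq - 1 ∨ Pc c d ∣ X ^ (p * N0) - 1 ∨ (p = 2 ∧ Pc c d ∣ X ^ 12 - 1) := by
  obtain ⟨x, y, z, h1, h3, h4, h5⟩ := exists_roots (E := E) c d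
  have hmem : ∀ w : E, w ^ 3 - algebraMap K E c * w ^ 2 + algebraMap K E d * w - 1 = 0 →
      (w - x) * (w - y) * (w - z) = 0 := by
    intro w hw
    have := congrArg (eval w) (Pc_map (E := E) c d)
    rw [h1] at this
    simp only [P3, eval_mul, eval_sub, eval_X, eval_C, eval_add, eval_pow, eval_one] at this
    rw [this, hw]
  have hr : ∀ w : E, (w - x) * (w - y) * (w - z) = 0 →
      w ^ 3 - algebraMap K E c * w ^ 2 + algebraMap K E d * w - 1 = 0 := by
    intro w hw
    rw [← h3, ← h4]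
    rw [show w ^ 3 - (x + y + z) * w ^ 2 + (x * y + y * z + z * x) * w - 1 =
      (w - x) * (w - y) * (w - z) + (x * y * z - 1) by ring, hw, h5]
    ring
  have hne : ∀ w : E, w = x ∨ w = y ∨ w = z → w ≠ 0 := by
    rintro w (rfl | rfl | rfl) rfl
    · simp at h5
    · simp at h5
    · simp at h5
  have hin : ∀ w : E, w = x ∨ w = y ∨ w = z → σ w = x ∨ σ w = y ∨ σ w = z := by
    intro w hw
    have hw' := hr w (by
      rcases hw with rfl | rfl | rfl <;> simp)
    have h6 := hmem _ (hroot w (hne w hw) hw')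
    rcases mul_eq_zero.1 h6 with h7 | h7
    · rcases mul_eq_zero.1 h7 with h8 | h8
      · exact Or.inl (sub_eq_zero.1 h8)
      · exact Or.inr (Or.inl (sub_eq_zero.1 h8))
    · exact Or.inr (Or.inr (sub_eq_zero.1 h7))
  have key := root_lemma (p := p) hinj h0 h2 hp1 hp2 h5 (hin x (Or.inl rfl)) (hin y (Or.inr (Or.inl rfl)))
    (hin z (Or.inr (Or.inr rfl))) (hsum x y z h5 h3 h4)
  have hdesc : ∀ m : ℕ, P3 x y z ∣ X ^ m - 1 → Pc c d ∣ X ^ m - 1 := by
    intro m hm
    rw [← h1] at hm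
    rw [← map_dvd_map (algebraMap K E) (algebraMap K E).injective (Pc_monic c d)]
    simpa [Polynomial.map_sub] using hm
  rcases key with h6 | h6 | h6 | ⟨h6, h7⟩
  · exact Or.inl (hdesc _ h6)
  · exact Or.inr (Or.inl (hdesc _ h6))
  · exact Or.inr (Or.inr (Or.inl (hdesc _ h6)))
  · exact Or.inr (Or.inr (Or.inr ⟨h6, hdesc _ h7⟩))

lemma aux1 {E : Type*} [Field E] {a b c : E} (hb : b ≠ 0) (h : a * b⁻¹ * c = 1) : a * c = b := by
  field_simp at h
  linear_combination h

lemma aux2 {E : Type*} [Field E] {X c d : E} (hX : X ≠ 0) (h : X ^ 3 - d * X ^ 2 + c * X - 1 = 0) :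
    (X⁻¹) ^ 3 - c * (X⁻¹) ^ 2 + d * X⁻¹ - 1 = 0 := by
  field_simp
  linear_combination -h

/-- The polynomial in the split case. -/
theorem cubic_split (c d : K) (n : ℕ) (hc : c ^ p ^ n = c) (hd : d ^ p ^ n = d) :
    Pc c d ∣ X ^ ((p ^ n) ^ 2 + p ^ n + 1) - 1 ∨ Pc c d ∣ X ^ ((p ^ n) ^ 2 - 1) - 1 ∨
      Pc c d ∣ X ^ (p * (p ^ n - 1)) - 1 ∨ (p = 2 ∧ Pc c d ∣ X ^ 12 - 1) := by
  let E := AlgebraicClosure K
  haveI : CharP E p := charP_of_injective_algebraMap (algebraMap K E).injective p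
  haveI : ExpChar E p := ExpChar.prime hp.out
  set q := p ^ n with hq
  have hq1 : 1 ≤ q := Nat.one_le_pow _ _ hp.out.pos
  let φ : E →+* E := iterateFrobenius E p n
  have hφ : ∀ x, φ x = x ^ q := fun x => iterateFrobenius_def p n x
  have hφc : φ (algebraMap K E c) = algebraMap K E c := by
    rw [hφ, ← map_pow, hc]
  have hφd : φ (algebraMap K E d) = algebraMap K E d := by
    rw [hφ, ← map_pow, hd]
  have hφφ : ∀ x, φ (φ x) = x ^ q ^ 2 := by
    intro x
    rw [hφ, hφ, ← pow_mul, pow_two]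
  apply cubic_gen (E := E) (σ := fun x => φ x) c d φ.injective
  · intro x hx0 h1
    have : x ^ (q - 1) * x = x ^ q := pow_sub_one_mul (by omega) x
    rw [← hφ, h1] at this
    exact mul_right_cancel₀ hx0 (this.trans (one_mul x).symm)
  · intro x hx0 h1
    have : x ^ (q ^ 2 - 1) * x = x ^ q ^ 2 := pow_sub_one_mul (by positivity) x
    rw [← hφφ, h1] at this
    exact mul_right_cancel₀ hx0 (this.trans (one_mul x).symm)
  · intro x hx0 h1
    rw [hφφ, hφ] at h1
    rw [← h1]
    ring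
  · intro x h1
    change (φ x) ^ _ = 1
    rw [hφ, ← pow_mul, mul_comm, pow_mul, h1, one_pow]
  · intro w hw h1
    have := congrArg φ h1
    simp only [map_sub, map_add, map_mul, map_pow, map_one, map_zero, hφc, hφd] at this
    exact this
  · intro x y z h1 h2 h3
    change φ x + φ y + φ z = _
    rw [← map_add, ← map_add, h2, hφc]

/-- The polynomial in the nonsplit case. -/
theorem cubic_nonsplit (c d : K) (n : ℕ) (hc : c ^ p ^ n = d) (hd : d ^ p ^ n = c) :
    Pc c d ∣ X ^ ((p ^ n) ^ 2 - p ^ n + 1) - 1 ∨ Pc c d ∣ X ^ ((p ^ n) ^ 2 - 1) - 1 ∨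
      Pc c d ∣ X ^ (p * (p ^ n + 1)) - 1 ∨ (p = 2 ∧ Pc c d ∣ X ^ 12 - 1) := by
  let E := AlgebraicClosure K
  haveI : CharP E p := charP_of_injective_algebraMap (algebraMap K E).injective p
  haveI : ExpChar E p := ExpChar.prime hp.out
  set q := p ^ n with hq
  have hq1 : 1 ≤ q := Nat.one_le_pow _ _ hp.out.pos
  let φ : E →+* E := iterateFrobenius E p n
  have hφ : ∀ x, φ x = x ^ q := fun x => iterateFrobenius_def p n x
  have hφc : φ (algebraMap K E c) = algebraMap K E d := by
    rw [hφ, ← map_pow, hc]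
  have hφd : φ (algebraMap K E d) = algebraMap K E c := by
    rw [hφ, ← map_pow, hd]
  have hφφ : ∀ x, φ (φ x) = x ^ q ^ 2 := by
    intro x
    rw [hφ, hφ, ← pow_mul, pow_two]
  have hσσ : ∀ x, ((φ ((φ x)⁻¹))⁻¹) = φ (φ x) := by
    intro x
    rw [map_inv₀, inv_inv]
  have hq2 : q ≤ q ^ 2 := Nat.le_self_pow (by norm_num) q
  apply cubic_gen (E := E) (σ := fun x => (φ x)⁻¹) c d (fun a b h => φ.injective (inv_injective h))
  · intro x hx0 h1
    have h1' : (φ x)⁻¹ = x := h1
    have h2 : φ x ≠ 0 := (map_ne_zero φ).2 hx0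
    rw [pow_succ, ← hφ]
    calc φ x * x = φ x * (φ x)⁻¹ := by rw [h1']
      _ = 1 := mul_inv_cancel₀ h2
  · intro x hx0 h1
    have h1' : ((φ ((φ x)⁻¹))⁻¹) = x := h1
    rw [hσσ] at h1'
    have : x ^ (q ^ 2 - 1) * x = x ^ q ^ 2 := pow_sub_one_mul (by positivity) x
    rw [← hφφ, h1'] at this
    exact mul_right_cancel₀ hx0 (this.trans (one_mul x).symm)
  · intro x hx0 h1
    have h1' : x * (φ x)⁻¹ * ((φ ((φ x)⁻¹))⁻¹) = 1 := h1
    rw [hσσ] at h1'
    have h2 : φ x ≠ 0 := (map_ne_zero φ).2 hx0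
    have h3 : x * φ (φ x) = φ x := aux1 h2 h1'
    have h4 : x ^ (q ^ 2 - q + 1) * x ^ q = x ^ q := by
      rw [← pow_add, show q ^ 2 - q + 1 + q = q ^ 2 + 1 by omega, pow_succ, ← hφφ, ← hφ, mul_comm, h3]
    exact mul_right_cancel₀ (by rw [← hφ]; exact h2) (h4.trans (one_mul _).symm)
  · intro x h1
    change ((φ x)⁻¹) ^ _ = 1
    rw [inv_pow, hφ, ← pow_mul, mul_comm, pow_mul, h1, one_pow, inv_one]
  · intro w hw h1
    have := congrArg φ h1
    simp only [map_sub, map_add, map_mul, map_pow, map_one, map_zero, hφc, hφd] at this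
    change ((φ w)⁻¹) ^ 3 - algebraMap K E c * ((φ w)⁻¹) ^ 2 + algebraMap K E d * (φ w)⁻¹ - 1 = 0
    have h2 : φ w ≠ 0 := (map_ne_zero φ).2 hw
    exact aux2 h2 this
  · intro x y z h1 h2 h3
    change (φ x)⁻¹ + (φ y)⁻¹ + (φ z)⁻¹ = _
    have h4 : φ x * φ y * φ z = 1 := by
      rw [← map_mul, ← map_mul, h1, map_one]
    have hx : (φ x)⁻¹ = φ y * φ z := by
      apply inv_eq_of_mul_eq_one_right
      linear_combination h4
    have hy : (φ y)⁻¹ = φ x * φ z := by
      apply inv_eq_of_mul_eq_one_right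
      linear_combination h4
    have hz : (φ z)⁻¹ = φ x * φ y := by
      apply inv_eq_of_mul_eq_one_right
      linear_combination h4
    rw [hx, hy, hz, h2, ← hφd, ← h3]
    simp only [map_add, map_mul]
    ring

/-- From the polynomial to the matrix. -/
lemma mat_pow {R : Type*} [Ring R] [Algebra K R] (A : R) (c d : K)
    (hA : A ^ 3 - c • A ^ 2 + d • A - 1 = 0) (m : ℕ) (h : Pc c d ∣ X ^ m - 1) : A ^ m = 1 := by
  obtain ⟨Q, hQ⟩ := h
  have h1 := congrArg (aeval A) hQ
  have h2 : aeval A (Pc c d) = 0 := by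
    simp only [Pc, map_sub, map_add, map_mul, map_pow, aeval_X, aeval_C, map_one]
    simpa [Algebra.smul_def] using hA
  rw [map_mul, h2, zero_mul] at h1
  simpa [sub_eq_zero] using h1

end main

end Cfsg.Agent.Lib.G2Oct.Eigen
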